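import Cfsg.Agent.Lib.Helper35.JR.Defs

/-!
# Project JR (S3206): package [EL]
From a normal subgroup `N` with `NLoc N` and `C_E(N) = 1` to `ELoc E`.
-/

set_option autoImplicit false
open scoped Pointwise

namespace Cfsg.Agent.Lib.Helper20.JR

open Cfsg.Agent.Lib.Helper35.JR

universe u

theorem pkgEL : PkgEL.{u} := by
  intro E _ _ hab N _ hNLoc hcent
  obtain ⟨hsimp, hsqN, hsylN, hautN⟩ := hNLoc
  haveI : Fact (Nat.Prime 2) := ⟨Nat.prime_two⟩
  -- Step A: every Sylow 2-subgroup of `E` lies in `N`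
  have hA : ∀ T : Sylow 2 E, (T : Subgroup E) ≤ N := by
    obtain ⟨V₀⟩ : Nonempty (Sylow 2 N) := inferInstance
    have hW : IsPGroup 2 ((V₀ : Subgroup N).map N.subtype) := V₀.isPGroup'.map N.subtype
    obtain ⟨T₀, hWT₀⟩ := hW.exists_le_sylow
    have hT₀ : (T₀ : Subgroup E) ≤ N := by
      intro x hx
      obtain ⟨k, hk⟩ := T₀.isPGroup' ⟨x, hx⟩
      have hxk : x ^ 2 ^ k = 1 := by
        have h := congrArg Subtype.val hk
        simpa using h
      have hα : (MulAut.conjNormal x : MulAut N) ^ 2 ^ k = 1 := by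
        rw [← map_pow, hxk, map_one]
      have hfix : ∀ y ∈ (V₀ : Subgroup N), (MulAut.conjNormal x : MulAut N) y = y := by
        intro y hy
        apply Subtype.ext
        rw [MulAut.conjNormal_apply]
        have hyT : (y : E) ∈ (T₀ : Subgroup E) := hWT₀ ⟨y, hy, rfl⟩
        rw [hab T₀ x hx y hyT, mul_inv_cancel_right]
      obtain ⟨v, hv, hvx⟩ := hautN (MulAut.conjNormal x) k hα V₀ hfix
      have hc : (v : E)⁻¹ * x ∈ Subgroup.centralizer (N : Set E) := by
        rw [Subgroup.mem_centralizer_iff]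
        intro n hn
        have h1 := congrArg Subtype.val (hvx ⟨n, hn⟩)
        rw [MulAut.conjNormal_apply] at h1
        simp only [Subgroup.coe_mul, Subgroup.coe_inv] at h1
        have h2 : x * n = (v : E) * n * (v : E)⁻¹ * x := by rw [← h1]; group
        calc n * ((v : E)⁻¹ * x) = (v : E)⁻¹ * ((v : E) * n * (v : E)⁻¹ * x) := by group
          _ = (v : E)⁻¹ * x * n := by rw [← h2]; group
      rw [hcent, Subgroup.mem_bot] at hc
      have hxv : x = (v : E) := by
        have h3 : x = (v : E) * ((v : E)⁻¹ * x) := by group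
        rw [h3, hc, mul_one]
      rw [hxv]; exact v.2
    intro T
    obtain ⟨g, hg⟩ := MulAction.exists_smul_eq E T₀ T
    intro x hx
    rw [← hg] at hx
    have hx' : x ∈ MulAut.conj g • (T₀ : Subgroup E) := by
      rw [← Sylow.pointwise_smul_def, ← Sylow.smul_def]; exact hx
    rw [Subgroup.mem_pointwise_smul_iff_inv_smul_mem] at hx'
    have h3 := hT₀ hx'
    have h4 : (MulAut.conj g)⁻¹ • x = g⁻¹ * x * g := by
      rw [MulAut.smul_def, MulAut.conj_inv_apply]
    rw [h4] at h3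
    have h5 := (inferInstance : N.Normal).conj_mem _ h3 g
    have h6 : g * (g⁻¹ * x * g) * g⁻¹ = x := by group
    rwa [h6] at h5
  -- Step B: the Sylow 2-subgroups of `E`
  have hB : ∀ T : Sylow 2 E,
      Nat.card ↥(T : Subgroup E) = 4 ∧ ∀ x ∈ (T : Subgroup E), x ^ 2 = 1 := by
    intro T
    have hTN := hA T
    obtain ⟨h4, hexp⟩ := hsylN (T.subtype hTN)
    constructor
    · rw [← h4]
      have h1 : ((T.subtype hTN : Sylow 2 N) : Subgroup N) = (T : Subgroup E).subgroupOf N :=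
        T.coe_subtype hTN
      rw [h1]
      exact (Nat.card_congr (Subgroup.subgroupOfEquivOfLe hTN).toEquiv).symm
    · intro x hx
      have hmem : (⟨x, hTN hx⟩ : N) ∈ ((T.subtype hTN : Sylow 2 N) : Subgroup N) := by
        rw [Sylow.coe_subtype, Subgroup.mem_subgroupOf]; exact hx
      have h2 := congrArg Subtype.val (hexp _ hmem)
      simpa using h2
  -- Step D: generation by squares
  have hNsq : N ≤ Subgroup.closure {y : E | ∃ x : E, x ^ 2 = y} := by
    intro n hn
    have h1 : (⟨n, hn⟩ : N) ∈ Subgroup.closure {y : N | ∃ x : N, x ^ 2 = y} := by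
      rw [hsqN]; trivial
    have h2 : (Subgroup.closure {y : N | ∃ x : N, x ^ 2 = y}).map N.subtype ≤
        Subgroup.closure {y : E | ∃ x : E, x ^ 2 = y} := by
      rw [MonoidHom.map_closure, Subgroup.closure_le]
      rintro _ ⟨y, ⟨x, rfl⟩, rfl⟩
      exact Subgroup.subset_closure ⟨(x : E), by simp⟩
    exact h2 ⟨⟨n, hn⟩, h1, rfl⟩
  have hodd : Odd N.index := by
    obtain ⟨T⟩ : Nonempty (Sylow 2 E) := inferInstance
    have h1 : ¬ 2 ∣ (T : Subgroup E).index := T.not_dvd_index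
    have h2 : N.index ∣ (T : Subgroup E).index := Subgroup.index_dvd_of_le (hA T)
    rw [← Nat.not_even_iff_odd, even_iff_two_dvd]
    exact fun h => h1 (h.trans h2)
  have hD : Subgroup.closure {y : E | ∃ x : E, x ^ 2 = y} = ⊤ := by
    rw [eq_top_iff]
    intro e _
    obtain ⟨j, hj⟩ := hodd
    have h1 : e ^ N.index ∈ N := Subgroup.pow_index_mem N e
    have h0 : e ^ ((j + 1) * 2) = e ^ (2 * j + 1) * e := by
      rw [show (j + 1) * 2 = (2 * j + 1) + 1 by ring, pow_succ]
    have h2 : e = (e ^ N.index)⁻¹ * (e ^ (j + 1)) ^ 2 := by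
      rw [hj, ← pow_mul, h0, inv_mul_cancel_left]
    rw [h2]
    exact mul_mem (inv_mem (hNsq h1)) (Subgroup.subset_closure ⟨e ^ (j + 1), rfl⟩)
  -- Step C: automorphisms
  refine ⟨hD, hB, ?_⟩
  intro β k hβ T hfix
  have hTN := hA T
  obtain ⟨h4, -⟩ := hB T
  haveI hN'normal : (N.map β.toMonoidHom).Normal :=
    Subgroup.Normal.map inferInstance β.toMonoidHom β.surjective
  have hI : ((N ⊓ N.map β.toMonoidHom).subgroupOf N).Normal := inferInstance
  have hTne : ∃ x ∈ (T : Subgroup E), x ≠ 1 := by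
    by_contra hcon
    push_neg at hcon
    have h1 : (T : Subgroup E) = ⊥ := (Subgroup.eq_bot_iff_forall _).mpr hcon
    rw [h1, Subgroup.card_bot] at h4
    omega
  obtain ⟨x₀, hx₀, hx₀1⟩ := hTne
  have hJ : (N ⊓ N.map β.toMonoidHom).subgroupOf N = ⊤ := by
    rcases hI.eq_bot_or_eq_top with h | h
    · exfalso
      have hmem : (⟨x₀, hTN hx₀⟩ : N) ∈ (N ⊓ N.map β.toMonoidHom).subgroupOf N := by
        rw [Subgroup.mem_subgroupOf]
        exact ⟨hTN hx₀, ⟨x₀, hTN hx₀, hfix x₀ hx₀⟩⟩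
      rw [h, Subgroup.mem_bot] at hmem
      exact hx₀1 (congrArg Subtype.val hmem)
    · exact h
  have hNle : N ≤ N.map β.toMonoidHom :=
    (Subgroup.subgroupOf_eq_top.mp hJ).trans inf_le_right
  have hNeq : N.map β.toMonoidHom = N := by
    symm
    apply Subgroup.eq_of_le_of_card_ge hNle
    rw [Subgroup.card_map_of_injective β.injective]
  have hβN : ∀ n ∈ N, β n ∈ N := by
    intro n hn
    have h1 : β n ∈ N.map β.toMonoidHom := ⟨n, hn, rfl⟩
    rwa [hNeq] at h1
  have hβsN : ∀ n ∈ N, β.symm n ∈ N := by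
    intro n hn
    have h1 : n ∈ N.map β.toMonoidHom := by rw [hNeq]; exact hn
    obtain ⟨n', hn', rfl⟩ := h1
    have h2 : β.symm (β.toMonoidHom n') = n' := β.symm_apply_apply n'
    rw [h2]; exact hn'
  obtain ⟨α, hαdef⟩ : ∃ α : N ≃* N, ∀ n : N, ((α n : N) : E) = β (n : E) :=
    ⟨{ toFun := fun n => ⟨β n, hβN n.1 n.2⟩
       invFun := fun n => ⟨β.symm n, hβsN n.1 n.2⟩
       left_inv := fun n => Subtype.ext (β.symm_apply_apply _)
       right_inv := fun n => Subtype.ext (β.apply_symm_apply _)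
       map_mul' := fun a b => Subtype.ext (map_mul β _ _) }, fun n => rfl⟩
  have hαpow : ∀ (j : ℕ) (n : N), (((α ^ j) n : N) : E) = (β ^ j) (n : E) := by
    intro j
    induction j with
    | zero => intro n; simp
    | succ j ih =>
      intro n
      rw [pow_succ, pow_succ, MulAut.mul_apply, MulAut.mul_apply, ih, hαdef]
  have hα : α ^ 2 ^ k = 1 := by
    ext n
    rw [hαpow, hβ]
    rfl
  have hαfix : ∀ y ∈ ((T.subtype hTN : Sylow 2 N) : Subgroup N), α y = y := by
    intro y hy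
    rw [Sylow.coe_subtype, Subgroup.mem_subgroupOf] at hy
    apply Subtype.ext
    rw [hαdef]
    exact hfix y hy
  obtain ⟨v, hv, hvα⟩ := hautN α k hα (T.subtype hTN) hαfix
  rw [Sylow.coe_subtype, Subgroup.mem_subgroupOf] at hv
  refine ⟨(v : E), hv, ?_⟩
  intro e
  have hβn : ∀ n ∈ N, β n = (v : E) * n * (v : E)⁻¹ := by
    intro n hn
    have h1 := congrArg Subtype.val (hvα ⟨n, hn⟩)
    rw [hαdef] at h1
    simpa using h1
  have hc : e⁻¹ * (v : E)⁻¹ * β e * (v : E) ∈ Subgroup.centralizer (N : Set E) := by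
    rw [Subgroup.mem_centralizer_iff]
    intro n hn
    have hen : e * n * e⁻¹ ∈ N := (inferInstance : N.Normal).conj_mem n hn e
    have key : (v : E) * (e * n * e⁻¹) * (v : E)⁻¹ =
        β e * ((v : E) * n * (v : E)⁻¹) * (β e)⁻¹ := by
      rw [← hβn _ hen, ← hβn n hn, map_mul, map_mul, map_inv]
    have h1 : β e * (v : E) * n = (v : E) * (e * n * e⁻¹) * (v : E)⁻¹ * (β e * (v : E)) := by
      rw [key]; group
    calc n * (e⁻¹ * (v : E)⁻¹ * β e * (v : E))
        = e⁻¹ * (v : E)⁻¹ * ((v : E) * (e * n * e⁻¹) * (v : E)⁻¹ * (β e * (v : E))) := by group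
      _ = e⁻¹ * (v : E)⁻¹ * β e * (v : E) * n := by rw [← h1]; group
  rw [hcent, Subgroup.mem_bot] at hc
  have h7 : β e = (v : E) * e * (e⁻¹ * (v : E)⁻¹ * β e * (v : E)) * (v : E)⁻¹ := by group
  rw [h7, hc, mul_one]

end Cfsg.Agent.Lib.Helper20.JR
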